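import Mathlib
import Cfsg.Agent.Lib.Helper93.SOd

/-!
S0983, package 5400b (helper72): no non-abelian simple group has order `5400 = 2^3 * 3^3 * 5^2`,
taking package 5400a (the centralizer of a non-identity element lying in two distinct Sylow
5-subgroups has order 300 and the element lies in exactly 6 Sylow 5-subgroups) as a hypothesis.
-/

set_option autoImplicit false

namespace Cfsg.Agent.Lib.Helper72.Ord5400

open Cfsg.Agent.Lib.Helper17 Cfsg.Agent.Lib.Helper93.SO

universe u

/-- The statement of package 5400a. -/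
def Hyp5400a : Prop :=
  ∀ {G : Type u} [Group G] [Finite G] [IsSimpleGroup G] (_hG : Nat.card G = 5400)
    (P Q : Sylow 5 G) (_hPQ : P ≠ Q) (d : G) (_hdP : d ∈ (P : Subgroup G))
    (_hdQ : d ∈ (Q : Subgroup G)) (_hd1 : d ≠ 1),
    Nat.card (Subgroup.centralizer ({d} : Set G)) = 300 ∧
      Nat.card {S : Sylow 5 G // d ∈ (S : Subgroup G)} = 6

/-- A free action of a finite group `H` on a finite set `α`: `|H|` divides `|α|`. -/
theorem card_dvd_of_free {H α : Type*} [Group H] [Finite H] [MulAction H α] [Finite α]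
    (hfree : ∀ a : α, MulAction.stabilizer H a = ⊥) : Nat.card H ∣ Nat.card α := by
  classical
  let _ : Fintype H := Fintype.ofFinite H
  let _ : Fintype α := Fintype.ofFinite α
  let _ : Fintype (Quotient (MulAction.orbitRel H α)) := Fintype.ofFinite _
  let _ : ∀ b : α, Fintype (MulAction.stabilizer H b) := fun b => Fintype.ofFinite _
  have h := MulAction.card_eq_sum_card_group_div_card_stabilizer H α
  rw [Nat.card_eq_fintype_card, Nat.card_eq_fintype_card, h]
  refine Finset.dvd_sum fun ω _ => ?_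
  have h1 : Fintype.card (MulAction.stabilizer H (Quotient.out ω)) = 1 := by
    rw [← Nat.card_eq_fintype_card, hfree, Subgroup.card_bot]
  rw [h1, Nat.div_one]

/-- Fixed points of the conjugation action of a `q`-group `K ≤ N(H)` on `H`, modulo `q`. -/
theorem card_modEq_card_centralizer {G : Type*} [Group G] (q : ℕ) [Fact q.Prime]
    (H K : Subgroup G) [Finite H] (hKq : IsPGroup q K)
    (hK : K ≤ Subgroup.normalizer (H : Set G)) :
    Nat.card H ≡ Nat.card ((Subgroup.centralizer (K : Set G)).subgroupOf H) [MOD q] := by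
  classical
  let _inst : MulAction ↥K ↥H :=
    { smul := fun s y => ⟨(s : G) * y * (s : G)⁻¹,
        (Subgroup.mem_normalizer_iff.mp (hK s.2) y).mp y.2⟩
      one_smul := fun y => by
        apply Subtype.ext
        show ((1 : ↥K) : G) * y * ((1 : ↥K) : G)⁻¹ = y
        simp
      mul_smul := fun a b y => by
        apply Subtype.ext
        show ((a * b : ↥K) : G) * y * ((a * b : ↥K) : G)⁻¹
          = (a : G) * ((b : G) * y * (b : G)⁻¹) * (a : G)⁻¹
        simp [mul_assoc] }
  have h := hKq.card_modEq_card_fixedPoints ↥H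
  have hset : MulAction.fixedPoints ↥K ↥H
      = (((Subgroup.centralizer (K : Set G)).subgroupOf H : Subgroup ↥H) : Set ↥H) := by
    ext y
    rw [MulAction.mem_fixedPoints, SetLike.mem_coe, Subgroup.mem_subgroupOf,
      Subgroup.mem_centralizer_iff]
    constructor
    · intro hy k hk
      have h2 : k * (y : G) * k⁻¹ = y := congrArg Subtype.val (hy ⟨k, hk⟩)
      calc k * (y : G) = k * y * k⁻¹ * k := by group
        _ = y * k := by rw [h2]
    · intro hy k
      apply Subtype.ext
      show (k : G) * y * (k : G)⁻¹ = y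
      rw [hy k k.2]
      group
  rw [hset] at h
  exact h

/-- Membership in a conjugate Sylow subgroup. -/
theorem mem_smul_sylow_iff {G : Type*} [Group G] {p : ℕ} (x y : G) (Q : Sylow p G) :
    y ∈ ((x • Q : Sylow p G) : Subgroup G) ↔ x⁻¹ * y * x ∈ (Q : Subgroup G) := by
  rw [Sylow.coe_subgroup_smul, Subgroup.mem_pointwise_smul_iff_inv_smul_mem]
  simp [MulAut.smul_def]

/-- Meeting `P` trivially is invariant under `N(P)`. -/
theorem inf_smul_eq_bot {G : Type*} [Group G] {p : ℕ} (P Q : Sylow p G) (x : G)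
    (hx : x ∈ Subgroup.normalizer ((P : Subgroup G) : Set G))
    (h : (P : Subgroup G) ⊓ (Q : Subgroup G) = ⊥) :
    (P : Subgroup G) ⊓ ((x • Q : Sylow p G) : Subgroup G) = ⊥ := by
  rw [Subgroup.eq_bot_iff_forall]
  intro y hy
  rw [Subgroup.mem_inf, mem_smul_sylow_iff] at hy
  have h1 : x⁻¹ * y * x ∈ (P : Subgroup G) := by
    have := (Subgroup.mem_normalizer_iff.mp (Subgroup.inv_mem _ hx) y).mp hy.1
    rwa [inv_inv] at this
  have h2 : x⁻¹ * y * x ∈ (P : Subgroup G) ⊓ (Q : Subgroup G) := ⟨h1, hy.2⟩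
  rw [h, Subgroup.mem_bot] at h2
  calc y = x * (x⁻¹ * y * x) * x⁻¹ := by group
    _ = 1 := by rw [h2]; group

set_option maxHeartbeats 1600000 in
/-- Package 5400b, modulo package 5400a. -/
theorem noSimple_5400_of (h5400a : Hyp5400a.{u}) : NoSimple.{u} 5400 := by
  intro G _ _ _ _hnc hcard
  classical
  have : Fact (Nat.Prime 5) := ⟨by norm_num⟩
  have : Fact (Nat.Prime 3) := ⟨by norm_num⟩
  have hGn : ¬ (Nat.card G).Prime := by rw [hcard]; norm_num
  have hcard' : Nat.card G = 5 ^ 2 * 216 := by rw [hcard]; norm_num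
  have hScard : ∀ S : Sylow 5 G, Nat.card (S : Subgroup G) = 25 := fun S => by
    have := card_sylow_eq_of_card_eq 5 2 216 hcard' (by norm_num) S
    rw [this]; norm_num
  have hcomm : ∀ S : Sylow 5 G, ∀ a ∈ (S : Subgroup G), ∀ b ∈ (S : Subgroup G),
      a * b = b * a := by
    intro S a ha b hb
    have h := (IsPGroup.isMulCommutative_of_card_eq_prime_sq (p := 5) (G := (S : Subgroup G))
      (by rw [hScard S]; norm_num)).1.1 ⟨a, ha⟩ ⟨b, hb⟩
    exact congrArg Subtype.val h
  obtain ⟨P⟩ := (Sylow.nonempty : Nonempty (Sylow 5 G))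
  have h5G : 5 ∣ Nat.card G := by rw [hcard]; norm_num
  have hne1 : Nat.card (Sylow 5 G) ≠ 1 :=
    card_sylow_ne_one 5 h5G 2 Nat.prime_two (by norm_num) (by rw [hcard]; norm_num)
  -- Step 1: `n_5 = 36`
  have hn5 : Nat.card (Sylow 5 G) = 36 := by
    have hdvd : Nat.card (Sylow 5 G) ∣ 216 := card_sylow_dvd_of_card_eq 5 2 216 hcard'
    have hmod : Nat.card (Sylow 5 G) % 5 = 1 := card_sylow_mod 5
    have hcases : ∀ n ∈ Nat.divisors 216, n % 5 = 1 → n = 1 ∨ n = 6 ∨ n = 36 ∨ n = 216 := by
      decide +kernel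
    rcases hcases _ (Nat.mem_divisors.mpr ⟨hdvd, by norm_num⟩) hmod with h | h | h | h
    · exact absurd h hne1
    · exfalso
      have h2 := two_mul_card_dvd_factorial_card_sylow hGn 5 hne1
      rw [h, hcard] at h2
      revert h2
      decide
    · exact h
    · exfalso
      have hN' := card_sylow_mul_card_normalizer 5 P
      rw [h, hcard] at hN'
      have hN25 : Nat.card (Subgroup.normalizer ((P : Subgroup G) : Set G)) = 25 := by omega
      have hPN : (P : Subgroup G) = Subgroup.normalizer ((P : Subgroup G) : Set G) :=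
        Subgroup.eq_of_le_of_card_ge Subgroup.le_normalizer (by rw [hN25, hScard P])
      apply not_normalizer_le_centralizer hGn 5 h5G P
      intro x hx
      rw [← hPN] at hx
      exact Subgroup.mem_centralizer_iff.mpr (fun y hy => hcomm P y hy x hx)
  have hNcard : Nat.card (Subgroup.normalizer ((P : Subgroup G) : Set G)) = 150 := by
    have h := card_sylow_mul_card_normalizer 5 P
    rw [hn5, hcard] at h
    omega
  -- Step 2: the Sylow subgroups meeting `P` trivially
  let Zs : SubMulAction (P : Subgroup G) (Sylow 5 G) :=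
    { carrier := {Q | (P : Subgroup G) ⊓ (Q : Subgroup G) = ⊥}
      smul_mem' := fun x Q hQ => by
        show (P : Subgroup G) ⊓ (((x : G) • Q : Sylow 5 G) : Subgroup G) = ⊥
        exact inf_smul_eq_bot P Q x (Subgroup.le_normalizer x.2) hQ }
  have hZ25 : 25 ∣ Nat.card Zs := by
    have hfree : ∀ a : Zs, MulAction.stabilizer (P : Subgroup G) a = ⊥ := by
      rintro ⟨Q, hQ⟩
      rw [Subgroup.eq_bot_iff_forall]
      intro x hx
      rw [MulAction.mem_stabilizer_iff] at hx
      have h1 : (x : G) • Q = Q := congrArg Subtype.val hx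
      have h2 : (x : G) ∈ Subgroup.normalizer ((Q : Subgroup G) : Set G) :=
        Sylow.smul_eq_iff_mem_normalizer.mp h1
      have h3 : (x : G) ∈ (P : Subgroup G) ⊓ (Q : Subgroup G) := by
        rw [← P.isPGroup'.inf_normalizer_sylow Q]
        exact ⟨x.2, h2⟩
      have hQ' : (P : Subgroup G) ⊓ (Q : Subgroup G) = ⊥ := hQ
      rw [hQ', Subgroup.mem_bot] at h3
      exact Subtype.ext h3
    have := card_dvd_of_free hfree
    rwa [hScard P] at this
  -- an element of order 3 of `N(P)`
  obtain ⟨g0, hg0⟩ := exists_prime_orderOf_dvd_card'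
    (G := Subgroup.normalizer ((P : Subgroup G) : Set G)) 3 (by rw [hNcard]; norm_num)
  obtain ⟨g, hgN⟩ := g0
  have hg3 : orderOf g = 3 := by
    rw [← hg0, ← Subgroup.orderOf_coe]
  have hK3 : IsPGroup 3 (Subgroup.zpowers g) :=
    IsPGroup.of_card (n := 1) (by rw [Nat.card_zpowers, hg3, pow_one])
  have hKN : ∀ k : Subgroup.zpowers g,
      (k : G) ∈ Subgroup.normalizer ((P : Subgroup G) : Set G) :=
    fun k => (Subgroup.zpowers_le.mpr hgN) k.2
  let Ys : SubMulAction (Subgroup.zpowers g) (Sylow 5 G) :=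
    { carrier := {Q | Q ≠ P ∧ (P : Subgroup G) ⊓ (Q : Subgroup G) ≠ ⊥}
      smul_mem' := fun k Q hQ => by
        refine ⟨fun h => hQ.1 ?_, fun h => hQ.2 ?_⟩
        · have h1 : (k : G) • Q = P := h
          have h2 : (k : G)⁻¹ • P = P :=
            Sylow.smul_eq_iff_mem_normalizer.mpr (Subgroup.inv_mem _ (hKN k))
          rw [← h2, ← h1, inv_smul_smul]
        · have h1 : (P : Subgroup G) ⊓ ((((k : G) • Q : Sylow 5 G)) : Subgroup G) = ⊥ := h
          have h2 := inf_smul_eq_bot P ((k : G) • Q) (k : G)⁻¹ (Subgroup.inv_mem _ (hKN k)) h1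
          rwa [inv_smul_smul] at h2 }
  have hZY : Nat.card Zs + Nat.card Ys = 35 := by
    have hZ : Nat.card Zs
        = Set.ncard {Q : Sylow 5 G | (P : Subgroup G) ⊓ (Q : Subgroup G) = ⊥} :=
      Nat.card_coe_set_eq _
    have hY : Nat.card Ys
        = Set.ncard {Q : Sylow 5 G | Q ≠ P ∧ (P : Subgroup G) ⊓ (Q : Subgroup G) ≠ ⊥} :=
      Nat.card_coe_set_eq _
    have hdisj : Disjoint {Q : Sylow 5 G | (P : Subgroup G) ⊓ (Q : Subgroup G) = ⊥}
        {Q : Sylow 5 G | Q ≠ P ∧ (P : Subgroup G) ⊓ (Q : Subgroup G) ≠ ⊥} := by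
      rw [Set.disjoint_left]
      intro Q h1 h2
      exact h2.2 h1
    have hunion : {Q : Sylow 5 G | (P : Subgroup G) ⊓ (Q : Subgroup G) = ⊥} ∪
        {Q : Sylow 5 G | Q ≠ P ∧ (P : Subgroup G) ⊓ (Q : Subgroup G) ≠ ⊥}
        = ({P} : Set (Sylow 5 G))ᶜ := by
      ext Q
      simp only [Set.mem_union, Set.mem_ofPred_eq, Set.mem_compl_iff, Set.mem_singleton_iff]
      constructor
      · rintro (h | h)
        · intro hQP
          rw [hQP, inf_idem] at h
          exact P.ne_bot_of_dvd_card h5G h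
        · exact h.1
      · intro h
        by_cases h2 : (P : Subgroup G) ⊓ (Q : Subgroup G) = ⊥
        · exact Or.inl h2
        · exact Or.inr ⟨h, h2⟩
    have h1 := Set.ncard_union_eq hdisj
    have h2 := Set.ncard_add_ncard_compl ({P} : Set (Sylow 5 G))
    rw [Set.ncard_singleton, hn5] at h2
    rw [hZ, hY, ← h1, hunion]
    omega
  have hYcard : Nat.card Ys = 35 ∨ Nat.card Ys = 10 := by
    obtain ⟨c, hc⟩ := hZ25
    omega
  -- Step 3: `g` normalizes some `Q ≠ P` meeting `P` nontrivially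
  have hfix := hK3.card_modEq_card_fixedPoints Ys
  have hne : (MulAction.fixedPoints (Subgroup.zpowers g) Ys).Nonempty := by
    by_contra hem
    rw [Set.not_nonempty_iff_eq_empty] at hem
    rw [hem] at hfix
    have h0 : Nat.card (∅ : Set Ys) = 0 := by simp
    rw [h0] at hfix
    rcases hYcard with h | h <;> rw [h] at hfix <;> exact absurd hfix (by decide)
  obtain ⟨⟨Q, hQY⟩, hQfix⟩ := hne
  have hgQ : g • Q = Q := congrArg Subtype.val (hQfix ⟨g, Subgroup.mem_zpowers g⟩)
  have hgNQ : g ∈ Subgroup.normalizer ((Q : Subgroup G) : Set G) :=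
    Sylow.smul_eq_iff_mem_normalizer.mp hgQ
  obtain ⟨hQP, hPQ⟩ := hQY
  -- Step 4: `g` centralizes some `d ≠ 1` of `P ⊓ Q`
  have hDcard : Nat.card ((P : Subgroup G) ⊓ (Q : Subgroup G) : Subgroup G) = 5 := by
    have hdvd : Nat.card ((P : Subgroup G) ⊓ (Q : Subgroup G) : Subgroup G) ∣ 25 := by
      rw [← hScard P]
      exact Subgroup.card_dvd_of_le inf_le_left
    have hne1 : Nat.card ((P : Subgroup G) ⊓ (Q : Subgroup G) : Subgroup G) ≠ 1 :=
      fun h => hPQ (Subgroup.card_eq_one.mp h)
    have hne25 : Nat.card ((P : Subgroup G) ⊓ (Q : Subgroup G) : Subgroup G) ≠ 25 := by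
      intro h
      have h1 : (P : Subgroup G) ⊓ (Q : Subgroup G) = (P : Subgroup G) :=
        Subgroup.eq_of_le_of_card_ge inf_le_left (by rw [h, hScard P])
      have h2 : (P : Subgroup G) ≤ (Q : Subgroup G) := inf_eq_left.mp h1
      have h3 : (P : Subgroup G) = (Q : Subgroup G) :=
        Subgroup.eq_of_le_of_card_ge h2 (by rw [hScard P, hScard Q])
      exact hQP (Sylow.ext h3).symm
    have hmem : Nat.card ((P : Subgroup G) ⊓ (Q : Subgroup G) : Subgroup G) ∈ Nat.divisors 25 :=
      Nat.mem_divisors.mpr ⟨hdvd, by norm_num⟩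
    have hcases : ∀ n ∈ Nat.divisors 25, n ≠ 1 → n ≠ 25 → n = 5 := by decide +kernel
    exact hcases _ hmem hne1 hne25
  have hKD : Subgroup.zpowers g ≤
      Subgroup.normalizer ((((P : Subgroup G) ⊓ (Q : Subgroup G) : Subgroup G)) : Set G) := by
    rw [Subgroup.zpowers_le, Subgroup.mem_normalizer_iff]
    intro y
    rw [Subgroup.mem_inf, Subgroup.mem_inf, ← Subgroup.mem_normalizer_iff.mp hgN y,
      ← Subgroup.mem_normalizer_iff.mp hgNQ y]
  have hmodD := card_modEq_card_centralizer 3 ((P : Subgroup G) ⊓ (Q : Subgroup G))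
    (Subgroup.zpowers g) hK3 hKD
  have hFne : (Subgroup.centralizer ((Subgroup.zpowers g : Subgroup G) : Set G)).subgroupOf
      ((P : Subgroup G) ⊓ (Q : Subgroup G)) ≠ ⊥ := by
    intro h
    rw [h, Subgroup.card_bot, hDcard] at hmodD
    exact absurd hmodD (by decide)
  obtain ⟨⟨⟨d, hdD⟩, hdC⟩, hd1⟩ := (Subgroup.ne_bot_iff_exists_ne_one).mp hFne
  have hdg : g * d = d * g :=
    Subgroup.mem_centralizer_iff.mp (Subgroup.mem_subgroupOf.mp hdC) g (Subgroup.mem_zpowers g)
  have hd1' : d ≠ 1 := fun h => hd1 (by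
    apply Subtype.ext
    apply Subtype.ext
    exact h)
  have hdP : d ∈ (P : Subgroup G) := hdD.1
  have hdQ : d ∈ (Q : Subgroup G) := hdD.2
  -- Step 5: the centralizer of `d`
  obtain ⟨hM300, hS6⟩ := h5400a hcard P Q (Ne.symm hQP) d hdP hdQ hd1'
  have hcentr : ∀ S : Sylow 5 G, d ∈ (S : Subgroup G) →
      (S : Subgroup G) ≤ Subgroup.centralizer ({d} : Set G) := by
    intro S hS y hy
    refine Subgroup.mem_centralizer_iff.mpr (fun z hz => ?_)
    rw [Set.mem_singleton_iff] at hz
    rw [hz]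
    exact hcomm S d hS y hy
  have horb : MulAction.orbit (Subgroup.centralizer ({d} : Set G)) P
      = {S : Sylow 5 G | d ∈ (S : Subgroup G)} := by
    ext S
    constructor
    · rintro ⟨m, rfl⟩
      show d ∈ ((((m : G) • P : Sylow 5 G)) : Subgroup G)
      rw [mem_smul_sylow_iff]
      have hm := Subgroup.mem_centralizer_iff.mp m.2 d (Set.mem_singleton d)
      have h1 : (m : G)⁻¹ * d * m = d := by rw [mul_assoc, hm, inv_mul_cancel_left]
      rw [h1]
      exact hdP
    · intro hS
      obtain ⟨m, hm⟩ := MulAction.exists_smul_eq (Subgroup.centralizer ({d} : Set G))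
        (P.subtype (hcentr P hdP)) (S.subtype (hcentr S hS))
      rw [Sylow.smul_subtype] at hm
      exact ⟨m, Sylow.subtype_injective hm⟩
  have h6 : (MulAction.orbit (Subgroup.centralizer ({d} : Set G)) P).ncard = 6 := by
    rw [horb, ← hS6]
    exact (Nat.card_coe_set_eq _).symm
  have hidx := MulAction.index_stabilizer (Subgroup.centralizer ({d} : Set G)) P
  have hstab : Nat.card (MulAction.stabilizer (Subgroup.centralizer ({d} : Set G)) P) = 50 := by
    have h := Subgroup.card_mul_index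
      (MulAction.stabilizer (Subgroup.centralizer ({d} : Set G)) P)
    rw [hidx, h6, hM300] at h
    omega
  have hgM : g ∈ Subgroup.centralizer ({d} : Set G) := by
    refine Subgroup.mem_centralizer_iff.mpr (fun z hz => ?_)
    rw [Set.mem_singleton_iff] at hz
    rw [hz]
    exact hdg.symm
  have hgstab : (⟨g, hgM⟩ : Subgroup.centralizer ({d} : Set G)) ∈
      MulAction.stabilizer (Subgroup.centralizer ({d} : Set G)) P := by
    rw [MulAction.mem_stabilizer_iff]
    exact Sylow.smul_eq_iff_mem_normalizer.mpr hgN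
  have hord : orderOf (⟨⟨g, hgM⟩, hgstab⟩ :
      MulAction.stabilizer (Subgroup.centralizer ({d} : Set G)) P) = 3 := by
    rw [← hg3, ← Subgroup.orderOf_coe, ← Subgroup.orderOf_coe]
  have hdvd := orderOf_dvd_natCard (⟨⟨g, hgM⟩, hgstab⟩ :
      MulAction.stabilizer (Subgroup.centralizer ({d} : Set G)) P)
  rw [hord, hstab] at hdvd
  exact absurd hdvd (by decide)

end Cfsg.Agent.Lib.Helper72.Ord5400
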