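import Mathlib
import Cfsg.Agent.Lib.Helper72.Ord5400Core
import Cfsg.Agent.Lib.Helper93.Ord5400a

/-!
S0983, package 5400b (helper72): no non-abelian simple group has order `5400`.
-/

set_option autoImplicit false

namespace Cfsg.Agent.Lib.Helper72.Ord5400

open Cfsg.Agent.Lib.Helper93.SO

universe u

/-- No non-abelian simple group has order `5400 = 2^3 * 3^3 * 5^2`. -/
theorem noSimple_5400 : NoSimple.{u} 5400 :=
  noSimple_5400_of (fun hG P Q hPQ d hdP hdQ hd1 =>
    Cfsg.Agent.Lib.Helper93.Ord5400a.card_centralizer_5400 hG P Q hPQ d hdP hdQ hd1)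

end Cfsg.Agent.Lib.Helper72.Ord5400
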